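import Cfsg.Agent.H532.PNormTwo.Fi24

/-!
# `Fi₂₄'`: every element sends some transposition to a transposition commuting with it (helper834, for S4908)

The constituent of degree 57477 of the permutation character on the 306936 transpositions has the value
`(c + 81 f - 31752) / 432` at `z`, where `f` is the number of fixed transpositions and `c` the number of transpositions
moved to a different commuting transposition. For `c = f = 0` this is `-147 / 2`, not an algebraic integer.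
-/

set_option autoImplicit false

namespace Cfsg.Agent.H834.S8.FiComm

open Cfsg Cfsg.Agent.Characters.Core Cfsg.Agent.H690.Spor.RankThree Cfsg.Agent.H690.Spor.RankThree.R3
open Cfsg.Agent.H532.PNormTwo.Fi24 (exists_e card_eq com_iff' ncard_lam)
open Cfsg.Agent.H30.FiE
open Cfsg.Agent.Fischer.Fi24RepDef Cfsg.Agent.Fischer.Fi24Rep
open Cfsg.Agent.Fischer.Fi24RepOrb (UG)
open Cfsg.Agent.KFacts.FiTF.Pts
open Cfsg.Spor (Fi24)
open Cfsg.Spor.Fi24 (Gen)

local notation "L" => Cfsg.Agent.R08.FiTwentyFour.L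

open Classical in
/-- **the character of degree 57477** (with the values on the transpositions) -/
theorem exists_char : ∃ χ : IrrCharacter Spor.Fi24', ∀ z : Spor.Fi24', (432 : ℂ) * (χ : Spor.Fi24' → ℂ) z =
    (Nat.card {y : (L : Set Fi24) // (y : Fi24) ≠ (z : Fi24) * y * (z : Fi24)⁻¹ ∧
      Commute (y : Fi24) ((z : Fi24) * y * (z : Fi24)⁻¹)} : ℂ) +
    81 * (Nat.card {y : (L : Set Fi24) // (z : Fi24) * y * (z : Fi24)⁻¹ = y} : ℂ) - 31752 := by
  have hfin24 : Finite Fi24 := Cfsg.Agent.R08.FiTwentyFour.finite_Fi24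
  let _ := Cfsg.Agent.H30.GraphFi24.act
  have h3 : R3 Spor.Fi24' (L : Set Fi24) (fun x y => (x : Fi24) ≠ y ∧ Commute (x : Fi24) y) 31671 275264 :=
    Cfsg.Agent.H30.GraphFi24.r3
  have hfin : Finite Spor.Fi24' := inferInstance
  obtain ⟨e, he⟩ := exists_e
  have := Fintype.ofFinite (L : Set Fi24)
  set y0 : (L : Set Fi24) := ⟨gen .l, Cfsg.Agent.R08.FiTwentyFour.gen_mem_L .l⟩ with hy0
  set y2 : (L : Set Fi24) := ⟨gen .c, Cfsg.Agent.R08.FiTwentyFour.gen_mem_L .c⟩ with hy2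
  have p0 : IsPt (y0 : Fi24) 0 := Cfsg.Agent.KFacts.FiTF.FixMask.isPt_gen .l
  have p2 : IsPt (y2 : Fi24) 2 := Cfsg.Agent.KFacts.FiTF.FixMask.isPt_gen .c
  have h02 : Com 0 2 := by
    refine ⟨bit_gen .l, bit_gen .c, by norm_num, ?_⟩
    have e1 : tp 0 = gen .l := tp_gen .l
    have e2 : tp 2 = gen .c := tp_gen .c
    rw [e1, e2]
    exact Cfsg.Agent.Fischer.Fi24Final.gen_comm (x := .l) (y := .c) (by decide)
  have hl : com (fun x y : (L : Set Fi24) => (x : Fi24) ≠ y ∧ Commute (x : Fi24) y) y0 y2 = 3510 := by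
    rw [← ncard_lam]
    refine card_eq e _ _ (fun z => ?_) fun n hn => hn.1.2.1
    rw [Set.mem_ofPred_eq]
    exact and_congr (com_iff' p0 (he z)) (com_iff' (he z) p2)
  have hab := Cfsg.Agent.H442.RankVal.params (h := h3) (x₀ := y0) (y₀ := y2)
    ((com_iff' p0 p2).2 h02) (a := 3510) (b := 3240) hl (by norm_num)
  obtain ⟨χ, hχ⟩ := Cfsg.Agent.H305.RankVal.exists_char h3 hab (r := 351) (s := -81) (by norm_num) (by norm_num)
    (by norm_num) (by norm_num) (by norm_num)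
  refine ⟨χ, fun z => ?_⟩
  have h4 := hχ z
  have e1 : Nat.card (MulAction.fixedBy (L : Set Fi24) z) =
      Nat.card {y : (L : Set Fi24) // (z : Fi24) * y * (z : Fi24)⁻¹ = y} := by
    refine Nat.card_congr (Equiv.subtypeEquivRight fun y => ?_)
    rw [MulAction.mem_fixedBy]
    exact Subtype.ext_iff
  have e2 : Nat.card {y : (L : Set Fi24) // (y : Fi24) ≠ (z • y : (L : Set Fi24)) ∧
      Commute (y : Fi24) (z • y : (L : Set Fi24))} =
      Nat.card {y : (L : Set Fi24) // (y : Fi24) ≠ (z : Fi24) * y * (z : Fi24)⁻¹ ∧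
      Commute (y : Fi24) ((z : Fi24) * y * (z : Fi24)⁻¹)} := rfl
  rw [e1, e2] at h4
  have h5 : (432 : ℂ) = 351 - -81 := by norm_num
  rw [h5, h4]
  push_cast
  ring

/-- **Every element of `Fi₂₄'` moves some transposition to one commuting with it** (possibly to itself). -/
theorem exists_comm (z : Spor.Fi24') : ∃ d ∈ L, Commute d ((z : Fi24) * d * (z : Fi24)⁻¹) := by
  by_contra hcon
  push Not at hcon
  obtain ⟨χ, hχ⟩ := exists_char
  have hfin : Finite Spor.Fi24' := Cfsg.Agent.H30.GraphFi24.finite_Fi24'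
  have h1 := hχ z
  have e1 : Nat.card {y : (L : Set Fi24) // (y : Fi24) ≠ (z : Fi24) * y * (z : Fi24)⁻¹ ∧
      Commute (y : Fi24) ((z : Fi24) * y * (z : Fi24)⁻¹)} = 0 := by
    have : IsEmpty {y : (L : Set Fi24) // (y : Fi24) ≠ (z : Fi24) * y * (z : Fi24)⁻¹ ∧
      Commute (y : Fi24) ((z : Fi24) * y * (z : Fi24)⁻¹)} := ⟨fun y => hcon _ y.1.2 y.2.2⟩
    exact Nat.card_of_isEmpty
  have e2 : Nat.card {y : (L : Set Fi24) // (z : Fi24) * y * (z : Fi24)⁻¹ = y} = 0 := by
    have : IsEmpty {y : (L : Set Fi24) // (z : Fi24) * y * (z : Fi24)⁻¹ = y} :=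
      ⟨fun y => hcon _ y.1.2 (by rw [y.2])⟩
    exact Nat.card_of_isEmpty
  rw [e1, e2] at h1
  have h2 : (χ : Spor.Fi24' → ℂ) z = ((-147 / 2 : ℚ) : ℂ) := by
    push_cast
    linear_combination (1 / 432 : ℂ) * h1
  have hc : IsCharacter Spor.Fi24' (χ : Spor.Fi24' → ℂ) := by
    obtain ⟨n, ρ, -, hρ⟩ := χ.2
    exact ⟨n, ρ, hρ⟩
  obtain ⟨a, ha⟩ := Cfsg.Agent.Characters.GaloisBasic.exists_int_of_isIntegral
    (Cfsg.Agent.Characters.GaloisBasic.isIntegral_apply hc z) ⟨_, h2⟩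
  rw [h2] at ha
  have h3 : (-147 / 2 : ℚ) = (a : ℚ) := by exact_mod_cast ha
  have h4 : (-147 : ℤ) = 2 * a := by
    have h5 : (-147 : ℚ) = 2 * a := by linear_combination 2 * h3
    exact_mod_cast h5
  omega

end Cfsg.Agent.H834.S8.FiComm
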